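import Cfsg.Agent.Lib.Helper29.SuzB.Data

set_option autoImplicit false
set_option Elab.async false

namespace Cfsg.Agent.Lib.Helper29.SuzB

open Cfsg.Agent.Lib.Helper29.TcTrace Cfsg.Agent.Lib.Helper29.TcCert Cfsg.Agent.Lib.Helper29.TcPerm

theorem lblk_0 : chkPBlk P 4 15 256 416 0 0x25344354534312451525431534231342152541142231234224124354534315342131525342541241254142231234114213153425412253414214234233421422322541423142323434453233431423423434545524344542345345453541554552555345245154253452534534451525342534142525341423534231432312b0 = true := by decide +kernel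
theorem lblk_1 : chkPBlk P 4 15 256 416 1 0x442345343454545353453425414545553454154142345353454142423344554424233445534233445542344554145542541b444244243533334334542353455534445534444534241313123134134455 = true := by decide +kernel
theorem lo_0_1 : ∀ b, 0 ≤ b → b < 1 → ∃ J, chkPBlk P 4 15 256 416 b J = true := fun b h1 h2 => by
  have hb : b = 0 := Nat.le_antisymm (Nat.le_of_lt_succ h2) h1
  subst hb; exact ⟨_, lblk_0⟩
theorem lo_1_2 : ∀ b, 1 ≤ b → b < 2 → ∃ J, chkPBlk P 4 15 256 416 b J = true := fun b h1 h2 => by
  have hb : b = 1 := Nat.le_antisymm (Nat.le_of_lt_succ h2) h1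
  subst hb; exact ⟨_, lblk_1⟩
theorem lo_0_2 : ∀ b, 0 ≤ b → b < 2 → ∃ J, chkPBlk P 4 15 256 416 b J = true := fun b h1 h2 =>
  if h : b < 1 then lo_0_1 b h1 h else lo_1_2 b (Nat.le_of_not_lt h) h2

end Cfsg.Agent.Lib.Helper29.SuzB
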